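import Cfsg.Agent.H412.Tc.HeisDefs

/-!
# S3621, lemma Ex and lemma Powr (helper306)
-/

set_option autoImplicit false

namespace Cfsg.Agent.H306.TcEx

open Cfsg.Agent.H412.Tc

universe u

section units

/-- `Kˣ` modulo `r`-th powers is generated by any `α` which is not an `r`-th power -/
theorem exists_pow_mul {C : Type*} [CommGroup C] [IsCyclic C] [Finite C] {r : ℕ} (hr : r.Prime)
    (hdvd : r ∣ Nat.card C) {α : C} (hα : ∀ u : C, α ≠ u ^ r) (β : C) : ∃ (k : ℕ) (u : C), β * α ^ k = u ^ r := by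
  set P : Subgroup C := (powMonoidHom r : C →* C).range with hP
  have hidx : P.index = r := by
    rw [hP, IsCyclic.index_powMonoidHom_range]
    exact Nat.gcd_eq_right hdvd
  have hαP : α ∉ P := by
    rintro ⟨u, hu⟩
    exact hα u hu.symm
  have h1 := Subgroup.relIndex_mul_index (H := P) (K := P ⊔ Subgroup.zpowers α) le_sup_left
  rw [hidx] at h1
  have h2 : (P ⊔ Subgroup.zpowers α).index = 1 := by
    rcases (Nat.dvd_prime hr).1 (Dvd.intro_left _ h1) with h | h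
    · exact h
    · exfalso
      rw [h] at h1
      have h3 : P.relIndex (P ⊔ Subgroup.zpowers α) = 1 := by
        have := hr.pos
        exact Nat.eq_of_mul_eq_mul_right this (by rw [h1, one_mul])
      rw [Subgroup.relIndex_eq_one] at h3
      exact hαP (h3 (Subgroup.mem_sup_right (Subgroup.mem_zpowers α)))
  rw [Subgroup.index_eq_one] at h2
  have h3 : β⁻¹ ∈ P ⊔ Subgroup.zpowers α := by rw [h2]; exact Subgroup.mem_top _
  obtain ⟨y, ⟨v, hv⟩, z, ⟨k, hk⟩, hyz⟩ := Subgroup.mem_sup.1 h3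
  have hv' : v ^ r = y := hv
  have hk' : α ^ k = z := hk
  have hr0 : (r : ℤ) ≠ 0 := by exact_mod_cast hr.ne_zero
  have hk2 : α ^ k = α ^ (k % r).toNat * (α ^ (k / r)) ^ r := by
    have h4 : ((k % r).toNat : ℤ) = k % r := Int.toNat_of_nonneg (Int.emod_nonneg _ hr0)
    rw [← zpow_natCast, h4, ← zpow_natCast, ← zpow_mul, ← zpow_add]
    congr 1
    rw [mul_comm]
    exact (Int.emod_add_mul_ediv k r).symm
  refine ⟨(k % r).toNat, (v * α ^ (k / r))⁻¹, ?_⟩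
  have h5 : β⁻¹ = v ^ r * (α ^ (k % r).toNat * (α ^ (k / r)) ^ r) := by
    rw [← hyz, ← hv', ← hk', hk2]
  rw [inv_pow, mul_pow, eq_inv_iff_mul_eq_one]
  have h6 : β * β⁻¹ = 1 := mul_inv_cancel β
  rw [h5] at h6
  rw [← h6]
  simp only [mul_comm, mul_left_comm, mul_assoc]

theorem sq_eq_one {K : Type*} [Field K] {c : Kˣ} (h : c ^ 2 = 1) : c = 1 ∨ c = -1 := by
  have h1 : (c : K) ^ 2 = 1 := by rw [← Units.val_pow_eq_pow_val, h, Units.val_one]
  have h3 : ((c : K) - 1) * (c + 1) = 0 := by linear_combination h1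
  rcases mul_eq_zero.1 h3 with h2 | h2
  · exact Or.inl (Units.ext (by rw [Units.val_one]; linear_combination h2))
  · exact Or.inr (Units.ext (by rw [Units.val_neg, Units.val_one]; linear_combination h2))

end units

section

variable {K V : Type*} [Field K] [AddCommGroup V] [Module K V] {B : Subgroup (GV V)} {r : ℕ}

/-- scaling an element whose `r`-th power is an `r`-th power of a scalar -/
theorem scale (hB : Heis K V r B) {y : GV V} (hy : y ∈ B) (hns : ∀ c : Kˣ, y ≠ scal K V c) {u e : Kˣ}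
    (h : y ^ r = scal K V (e * u ^ r)) :
    scal K V u⁻¹ * y ∈ B ∧ (scal K V u⁻¹ * y) ^ r = scal K V e ∧ (∀ c : Kˣ, scal K V u⁻¹ * y ≠ scal K V c) ∧
      y = scal K V u * (scal K V u⁻¹ * y) := by
  refine ⟨B.mul_mem (hB.scal_mem _) hy, ?_, ?_, ?_⟩
  · have h1 : Commute (scal K V u⁻¹) y := ((hB.linb hy).scal_commute u⁻¹).symm
    rw [h1.mul_pow, h, ← map_pow, ← map_mul, inv_pow, mul_comm e, inv_mul_cancel_left]
  · intro c hc
    apply hns (u * c)
    rw [map_mul, ← hc, ← mul_assoc, ← map_mul, mul_inv_cancel, map_one, one_mul]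
  · rw [← mul_assoc, ← map_mul, mul_inv_cancel, map_one, one_mul]

/-- the power of a product -/
theorem pow_mul (hB : Heis K V r B) [Nontrivial V] {a b : GV V} (ha : a ∈ B) (hb : b ∈ B) :
    ∃ e : Kˣ, (a * b) ^ r = scal K V e * (a ^ r * b ^ r) ∧ (e = 1 ∨ (r = 2 ∧ e = -1)) := by
  obtain ⟨c, hc⟩ := hB.cc hb ha
  have hcr := hB.cc_pow hb ha hc
  refine ⟨_, CC.mul_pow (hB.linb ha) (hB.linb hb) hc r, ?_⟩
  rcases hB.prime.eq_two_or_odd' with h2 | ho
  · subst h2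
    have h3 : 2 * (2 - 1) / 2 = 1 := rfl
    rw [h3, pow_one]
    rcases sq_eq_one hcr with h | h
    · exact Or.inl h
    · exact Or.inr ⟨rfl, h⟩
  · left
    obtain ⟨k, hk⟩ := ho
    have h3 : r * (r - 1) / 2 = r * k := by
      rw [hk, Nat.add_sub_cancel, mul_comm 2 k, ← mul_assoc, Nat.mul_div_cancel _ (by norm_num)]
    rw [h3, _root_.pow_mul, hcr, one_pow]

/-- `r`-th powers -/
def Q (K : Type*) {V : Type*} [Field K] [AddCommGroup V] [Module K V] (r : ℕ) (b : GV V) : Prop :=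
  ∃ e c : Kˣ, b ^ r = scal K V (e * c ^ r) ∧ (e = 1 ∨ (r = 2 ∧ e = -1))

theorem sg_mul {r : ℕ} {e e' : Kˣ} (h : e = 1 ∨ (r = 2 ∧ e = -1)) (h' : e' = 1 ∨ (r = 2 ∧ e' = -1)) :
    e * e' = 1 ∨ (r = 2 ∧ e * e' = -1) := by
  rcases h with rfl | ⟨h2, rfl⟩ <;> rcases h' with rfl | ⟨h2', rfl⟩
  · left; rw [one_mul]
  · right; exact ⟨h2', by rw [one_mul]⟩
  · right; exact ⟨h2, by rw [mul_one]⟩
  · left; rw [neg_mul_neg, one_mul]

/-- semilinear maps and scalars -/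
theorem semi_scal {g : GV V} (h : Semi K g) :
    ∃ τ : Kˣ →* Kˣ, τ (-1) = -1 ∧ ∀ c : Kˣ, g * scal K V c = scal K V (τ c) * g := by
  obtain ⟨σ, hσ⟩ := h
  refine ⟨Units.map (σ : K →* K), ?_, ?_⟩
  · apply Units.ext
    rw [Units.coe_map]
    simp
  · intro c
    apply GV_ext
    intro v
    rw [mul_smul, mul_smul, scal_smul, scal_smul, hσ]
    rfl

end

section powr

variable {K V : Type u} [Field K] [Finite K] [AddCommGroup V] [Finite V] [Module K V]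
  {A B : Subgroup (GV V)} {r : ℕ}

theorem nontriv (S : SetB K V A B r) : Nontrivial V :=
  Finite.one_lt_card_iff_nontrivial.1 (by have := S.card; omega)

theorem powr_aux (S : SetB K V A B r) (hx : ∃ x ∈ B, x ^ r = 1 ∧ ∀ c : Kˣ, x ≠ scal K V c) :
    ∀ b ∈ B, Q K r b := by
  have hV := nontriv S
  have hB := S.heis
  let N : Subgroup (GV V) :=
    { carrier := {b | b ∈ B ∧ Q K r b}
      one_mem' := ⟨B.one_mem, 1, 1, by rw [one_pow, one_pow, one_mul, map_one], Or.inl rfl⟩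
      mul_mem' := by
        rintro a b ⟨ha, e1, c1, h1, h1'⟩ ⟨hb, e2, c2, h2, h2'⟩
        obtain ⟨e, he, he'⟩ := pow_mul hB ha hb
        refine ⟨B.mul_mem ha hb, e * (e1 * e2), c1 * c2, ?_, sg_mul he' (sg_mul h1' h2')⟩
        rw [he, h1, h2, ← map_mul, ← map_mul]
        congr 1
        rw [mul_pow]
        simp only [mul_comm, mul_left_comm, mul_assoc]
      inv_mem' := by
        rintro a ⟨ha, e1, c1, h1, h1'⟩
        refine ⟨B.inv_mem ha, e1⁻¹, c1⁻¹, ?_, ?_⟩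
        · rw [inv_pow, h1, ← map_inv, mul_inv, inv_pow]
        · rcases h1' with rfl | ⟨h2, rfl⟩
          · left; rw [inv_one]
          · right; exact ⟨h2, by rw [inv_neg, inv_one]⟩ }
  have hN : ∀ {b : GV V}, b ∈ N ↔ b ∈ B ∧ Q K r b := Iff.rfl
  have hmin := S.min N (fun c => hN.2 ⟨hB.scal_mem c, 1, c, by rw [one_mul, map_pow], Or.inl rfl⟩)
    (fun b hb => (hN.1 hb).1) (by
      intro g hg b hb
      obtain ⟨hbB, e, c, h1, h2⟩ := hN.1 hb
      obtain ⟨τ, hτ1, hτ⟩ := semi_scal (S.semi g hg)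
      refine hN.2 ⟨S.norm g hg b hbB, τ e, τ c, ?_, ?_⟩
      · rw [conj_pow, h1, hτ, mul_inv_cancel_right, map_mul, map_pow]
      · rcases h2 with rfl | ⟨h2, rfl⟩
        · left; exact map_one τ
        · right; exact ⟨h2, hτ1⟩)
  rcases hmin with h | h
  · exfalso
    obtain ⟨x, hxB, hxr, hxs⟩ := hx
    obtain ⟨c, hc⟩ := h x (hN.2 ⟨hxB, 1, 1, by rw [hxr, one_pow, one_mul, map_one], Or.inl rfl⟩)
    exact hxs c hc
  · intro b hb
    exact (hN.1 (h hb)).2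

theorem Powr.main (S : SetB K V A B r) (hx : ∃ x ∈ B, x ^ r = 1 ∧ ∀ c : Kˣ, x ≠ scal K V c) :
    (r ≠ 2 → ∀ b ∈ B, ∃ c : Kˣ, b ^ r = scal K V (c ^ r)) ∧
    (r = 2 → ∀ b ∈ B, ∃ c : Kˣ, b ^ 2 = scal K V (c ^ 2) ∨ b ^ 2 = scal K V (-c ^ 2)) := by
  have h := powr_aux S hx
  constructor
  · intro hr b hb
    obtain ⟨e, c, h1, rfl | ⟨h2, -⟩⟩ := h b hb
    · exact ⟨c, by rw [h1, one_mul]⟩
    · exact absurd h2 hr
  · rintro rfl b hb
    obtain ⟨e, c, h1, rfl | ⟨-, rfl⟩⟩ := h b hb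
    · exact ⟨c, Or.inl (by rw [h1, one_mul])⟩
    · exact ⟨c, Or.inr (by rw [h1, neg_one_mul])⟩

theorem dvd_card (S : SetB K V A B r) : r ∣ Nat.card Kˣ := by
  have hV := nontriv S
  obtain ⟨a, ha, hns⟩ := S.ns
  obtain ⟨w, hw1, hw⟩ := S.heis.exists_root ha hns
  have h1 : orderOf w = r := by
    rcases (Nat.dvd_prime S.heis.prime).1 (orderOf_dvd_of_pow_eq_one hw) with h | h
    · exact absurd (orderOf_eq_one_iff.1 h) hw1
    · exact h
  rw [← h1]
  exact orderOf_dvd_natCard w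

theorem Ex.main (S : SetB K V A B r) :
    (∃ x ∈ B, x ^ r = 1 ∧ ∀ c : Kˣ, x ≠ scal K V c) ∨
    (r = 2 ∧ (∀ c : Kˣ, c ^ 2 ≠ -1) ∧ ∃ a ∈ B, ∃ b ∈ B, a ^ 2 = scal K V (-1) ∧
      b ^ 2 = scal K V (-1) ∧ CC (-1 : Kˣ) a b ∧
      ∀ x ∈ B, ∃ c : Kˣ, x = scal K V c ∨ x = scal K V c * a ∨ x = scal K V c * b ∨
        x = scal K V c * (a * b)) := by
  have hV := nontriv S
  have hB := S.heis
  have hdvd := dvd_card S
  have hcyc : IsCyclic Kˣ := inferInstance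
  rw [or_iff_not_imp_left]
  intro hno
  have H1 : ∀ {y : GV V}, y ∈ B → (∀ c : Kˣ, y ≠ scal K V c) → ∀ u : Kˣ, y ^ r ≠ scal K V (u ^ r) := by
    intro y hy hns u h
    obtain ⟨h1, h2, h3, -⟩ := scale hB hy hns (u := u) (e := 1) (by rw [one_mul]; exact h)
    exact hno ⟨_, h1, by rw [h2, map_one], h3⟩
  obtain ⟨a0, ha0, hns0⟩ := S.ns
  obtain ⟨b0, hb0, c0, hc0, hcc0⟩ := hB.exists_cc_ne ha0 hns0
  have key : r = 2 ∧ ∀ c : Kˣ, c ^ 2 ≠ -1 := by
    obtain ⟨α, hα⟩ := hB.pow a0 ha0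
    obtain ⟨β, hβ⟩ := hB.pow b0 hb0
    obtain ⟨k, u, hku⟩ := exists_pow_mul hB.prime hdvd (α := α) (fun u h => H1 ha0 hns0 u (by rw [hα, h])) β
    have hx0 : b0 * a0 ^ k ∈ B := B.mul_mem hb0 (B.pow_mem ha0 k)
    obtain ⟨e, he, he'⟩ := pow_mul hB hb0 (B.pow_mem ha0 k)
    have h1 : (b0 * a0 ^ k) ^ r = scal K V (e * u ^ r) := by
      rw [he, hβ, ← _root_.pow_mul, mul_comm k r, _root_.pow_mul, hα, ← map_pow, ← map_mul, ← map_mul, hku]
    have hns1 : ∀ c : Kˣ, b0 * a0 ^ k ≠ scal K V c := by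
      intro c hc
      have h2 : CC c0 a0 (b0 * a0 ^ k) := by
        have h3 : CC (1 : Kˣ) a0 (a0 ^ k) := cc_one_iff.2 (by rw [← pow_succ, ← pow_succ'])
        have h4 := CC.mul_right (hB.linb hb0) hcc0 h3
        rwa [mul_one] at h4
      rw [hc] at h2
      exact hc0 (h2.unique (CC.scal_right (hB.linb ha0) c))
    rcases he' with rfl | ⟨h2, rfl⟩
    · rw [one_mul] at h1
      exact absurd h1 (H1 hx0 hns1 u)
    · refine ⟨h2, fun i hi => ?_⟩
      apply H1 hx0 hns1 (i * u)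
      rw [h1, mul_pow]
      congr 2
      subst h2
      exact hi.symm
  obtain ⟨rfl, hK⟩ := key
  refine ⟨rfl, hK, ?_⟩
  -- nonscalar elements have square `-u ^ 2`
  have H2 : ∀ {y : GV V}, y ∈ B → (∀ c : Kˣ, y ≠ scal K V c) → ∃ u : Kˣ, y ^ 2 = scal K V ((-1) * u ^ 2) := by
    intro y hy hns
    obtain ⟨β, hβ⟩ := hB.pow y hy
    obtain ⟨k, u, hku⟩ := exists_pow_mul hB.prime hdvd (α := (-1 : Kˣ)) (fun u h => hK u h.symm) β
    rcases Nat.even_or_odd k with hk | hk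
    · rw [hk.neg_one_pow, mul_one] at hku
      exact absurd (by rw [hβ, hku]) (H1 hy hns u)
    · rw [hk.neg_one_pow] at hku
      refine ⟨u, ?_⟩
      rw [hβ, ← hku]
      congr 1
      rw [mul_neg_one, mul_neg, neg_mul, neg_neg, one_mul]
  have H3 : ∀ {y : GV V}, y ∈ B → (∀ c : Kˣ, y ≠ scal K V c) → ∃ u : Kˣ, ∃ y' ∈ B, y' ^ 2 = scal K V (-1) ∧
      y = scal K V u * y' ∧ y' = scal K V u⁻¹ * y := by
    intro y hy hns
    obtain ⟨u, hu⟩ := H2 hy hns
    obtain ⟨h1, h2, -, h4⟩ := scale hB hy hns hu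
    exact ⟨u, _, h1, h2, h4, rfl⟩
  have hc01 : c0 = -1 := by
    rcases sq_eq_one (hB.cc_pow ha0 hb0 hcc0) with h | h
    · exact absurd h hc0
    · exact h
  subst hc01
  have hns0' : ∀ c : Kˣ, b0 ≠ scal K V c := by
    intro c hc
    rw [hc] at hcc0
    exact hc0 (hcc0.unique (CC.scal_right (hB.linb ha0) c))
  obtain ⟨ua, a, ha, ha2, haa, haa'⟩ := H3 ha0 hns0
  obtain ⟨ub, b, hb, hb2, hbb, hbb'⟩ := H3 hb0 hns0'
  have hab : CC (-1 : Kˣ) a b := by
    have h1 : CC (-1 : Kˣ) a0 b := by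
      have h2 := CC.mul_right (lin_scal ub⁻¹) (CC.scal_right (hB.linb ha0) ub⁻¹) hcc0
      rw [one_mul, ← hbb'] at h2
      exact h2
    have h3 := CC.mul_left (lin_scal ua⁻¹) (CC.scal_left (hB.linb hb) ua⁻¹) h1
    rw [one_mul, ← haa'] at h3
    exact h3
  refine ⟨a, ha, b, hb, ha2, hb2, hab, ?_⟩
  have hab2 : (a * b) ^ 2 = scal K V (-1) := by
    rw [CC.mul_pow (hB.linb ha) (hB.linb hb) (show CC (-1 : Kˣ) b a by
      have := hab.symm; rwa [inv_neg, inv_one] at this) 2, ha2, hb2, ← map_mul, ← map_mul]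
    congr 1
    have h3 : 2 * (2 - 1) / 2 = 1 := rfl
    rw [h3]
    simp
  -- an element commuting with `e`, `e ^ 2 = -1`, is in `Z e`
  have H4 : ∀ {x' e : GV V}, x' ∈ B → e ∈ B → x' ^ 2 = scal K V (-1) → e ^ 2 = scal K V (-1) → x' * e = e * x' →
      ∃ c : Kˣ, x' = scal K V c * e := by
    intro x' e hx he hx2 he2 hcomm
    have h1 : (x' * e) ^ 2 = 1 := by
      have h2 : Commute x' e := hcomm
      rw [h2.mul_pow, hx2, he2, ← map_mul, neg_mul_neg, one_mul, map_one]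
    have h2 : ∃ c : Kˣ, x' * e = scal K V c := by
      by_contra h3
      push Not at h3
      exact hno ⟨_, B.mul_mem hx he, h1, h3⟩
    obtain ⟨c, hc⟩ := h2
    refine ⟨-c, ?_⟩
    have h3 : x' * e * e = scal K V c * e := by rw [hc]
    rw [mul_assoc, ← pow_two, he2] at h3
    have h4 : x' = x' * scal K V (-1) * scal K V (-1) := by
      rw [mul_assoc, ← map_mul, neg_mul_neg, one_mul, map_one, mul_one]
    have h5 : (-c : Kˣ) = c * (-1) := by rw [mul_neg_one]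
    rw [h4, h3, h5, map_mul, mul_assoc, mul_assoc, (hB.linb he).scal_comm]
  intro x hx
  by_cases hxs : ∃ c : Kˣ, x = scal K V c
  · obtain ⟨c, hc⟩ := hxs
    exact ⟨c, Or.inl hc⟩
  · push Not at hxs
    obtain ⟨u, x', hx', hx2, hxx, -⟩ := H3 hx hxs
    have fin : ∀ {e : GV V}, e ∈ B → e ^ 2 = scal K V (-1) → x' * e = e * x' → ∃ c : Kˣ, x = scal K V c * e := by
      intro e he he2 hcomm
      obtain ⟨c, hc⟩ := H4 hx' he hx2 he2 hcomm
      exact ⟨u * c, by rw [hxx, hc, map_mul, mul_assoc]⟩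
    obtain ⟨e1, h1⟩ := hB.cc hx' ha
    obtain ⟨e2, h2⟩ := hB.cc hx' hb
    rcases sq_eq_one (hB.cc_pow hx' ha h1) with h3 | h3
    · rw [h3, cc_one_iff] at h1
      obtain ⟨c, hc⟩ := fin ha ha2 h1
      exact ⟨c, Or.inr (Or.inl hc)⟩
    · rcases sq_eq_one (hB.cc_pow hx' hb h2) with h4 | h4
      · rw [h4, cc_one_iff] at h2
        obtain ⟨c, hc⟩ := fin hb hb2 h2
        exact ⟨c, Or.inr (Or.inr (Or.inl hc))⟩
      · have h5 := CC.mul_right (hB.linb ha) h1 h2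
        rw [h3, h4, neg_mul_neg, one_mul, cc_one_iff] at h5
        obtain ⟨c, hc⟩ := fin (B.mul_mem ha hb) hab2 h5
        exact ⟨c, Or.inr (Or.inr (Or.inr hc))⟩

end powr

end Cfsg.Agent.H306.TcEx
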